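import Cfsg.Agent.H974.Gs.RowLin

/-!
# S5719, `SL_n`: the standard involutions `sI I` (-1 on the coordinates in `I`) and the natural subgroups (helper974)

* `NatG_le_centralizer`, `card_centralizer_sI` : `|SL_I| |SL_{Iᶜ}| ≤ |C(sI I)|`;
* `card_block` : the elements of `NatG J` commuting with `sI (I₀ ∪ I₁)` modulo scalars are block matrices;
* `sup_natG` : `⟨NatG (I₁ ∪ R), NatG (I₀ ∪ R)⟩ = SL`, `R ≠ ∅`.
-/

set_option autoImplicit false

namespace Cfsg.Agent.H974.IF

open Matrix Subgroup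
open Cfsg.Agent.H127.Gs Cfsg.Agent.H974.Gs
open Cfsg.Agent.ClassicalGeometry.AutPSL.Root (pr pr_surjective pr_eq_one_iff exists_smul_of_pr_eq)

section

variable {F : Type*} [Field F] {ι : Type*} [Fintype ι] [DecidableEq ι]

/-- the sign function -/
def sg (F : Type*) [Field F] (I : Finset ι) (i : ι) : F := if i ∈ I then -1 else 1

omit [Fintype ι] in
theorem sg_mul (I : Finset ι) (i : ι) : sg F I i * sg F I i = 1 := by
  unfold sg
  split_ifs <;> ring

theorem det_sg {I : Finset ι} (hI : Even I.card) : (diagonal (sg F I)).det = 1 := by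
  rw [det_diagonal]
  unfold sg
  rw [Finset.prod_ite, Finset.prod_const, Finset.prod_const_one, mul_one, Finset.filter_mem_eq_inter,
    Finset.univ_inter]
  exact hI.neg_one_pow

/-- `-1` on the coordinates in `I` -/
def sI (F : Type*) [Field F] (I : Finset ι) (hI : Even I.card) : Matrix.SpecialLinearGroup ι F :=
  ⟨diagonal (sg F I), det_sg hI⟩

theorem coe_sI (I : Finset ι) (hI : Even I.card) : (sI F I hI : Matrix ι ι F) = diagonal (sg F I) := rfl

theorem sI_mul_self (I : Finset ι) (hI : Even I.card) : sI F I hI * sI F I hI = 1 := by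
  apply sl_ext
  rw [Matrix.SpecialLinearGroup.coe_mul, coe_sI, diagonal_mul_diagonal, Matrix.SpecialLinearGroup.coe_one]
  simp only [sg_mul]
  exact diagonal_one

theorem sI_inv (I : Finset ι) (hI : Even I.card) : (sI F I hI)⁻¹ = sI F I hI :=
  inv_eq_of_mul_eq_one_left (sI_mul_self I hI)

theorem sI_comm (I J : Finset ι) (hI : Even I.card) (hJ : Even J.card) :
    sI F I hI * sI F J hJ = sI F J hJ * sI F I hI := by
  apply sl_ext
  rw [Matrix.SpecialLinearGroup.coe_mul, Matrix.SpecialLinearGroup.coe_mul, coe_sI, coe_sI, diagonal_mul_diagonal,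
    diagonal_mul_diagonal]
  congr 1
  funext i
  exact mul_comm _ _

/-- `sI I` centralises the natural subgroups on subsets of `I` and of the complement -/
theorem NatG_le_centralizer {I J : Finset ι} (hI : Even I.card) {c : F} (hc : ∀ j ∈ J, sg F I j = c) :
    NatG F J ≤ centralizer ({sI F I hI} : Set (Matrix.SpecialLinearGroup ι F)) := by
  apply NatG_le
  intro v hv f hf hvf
  rw [mem_centralizer_iff]
  rintro _ rfl
  have hv' : (sI F I hI : Matrix ι ι F) *ᵥ v = c • v := by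
    rw [coe_sI]
    funext i
    rw [mulVec_diagonal, Pi.smul_apply, smul_eq_mul]
    by_cases hi : i ∈ J
    · rw [hc i hi]
    · rw [hv i hi, mul_zero, mul_zero]
  have hf' : f ᵥ* (((sI F I hI)⁻¹ : Matrix.SpecialLinearGroup ι F) : Matrix ι ι F) = c • f := by
    rw [sI_inv, coe_sI]
    funext i
    rw [vecMul_diagonal, Pi.smul_apply, smul_eq_mul, mul_comm]
    by_cases hi : i ∈ J
    · rw [hc i hi]
    · rw [hf i hi, mul_zero, mul_zero]
  by_cases hJ : J.Nonempty
  · obtain ⟨j, hj⟩ := hJ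
    have hcc : c * c = 1 := by rw [← hc j hj, sg_mul]
    have h1 := conj_tv (sI F I hI) hvf
    rw [hv', hf', tv_smul_left c (by rw [smul_dotProduct, hvf, smul_zero]), smul_smul, hcc, one_smul,
      mul_inv_eq_iff_eq_mul] at h1
    exact h1
  · have hv0 : v = 0 := by
      funext i
      exact hv i (fun hi => hJ ⟨i, hi⟩)
    rw [hv0, tv_zero_left, one_mul, mul_one]

/-- rows of elements of the natural subgroup -/
theorem NatG_fix_row {I : Finset ι} {s : Matrix.SpecialLinearGroup ι F} (hs : s ∈ NatG F I) {k : ι} (hk : k ∉ I) :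
    Pi.single k 1 ᵥ* (s : Matrix ι ι F) = Pi.single k 1 := by
  have hmul : ∀ y z : Matrix.SpecialLinearGroup ι F, Pi.single k 1 ᵥ* (y : Matrix ι ι F) = Pi.single k 1 →
      Pi.single k 1 ᵥ* (z : Matrix ι ι F) = Pi.single k 1 →
      Pi.single k 1 ᵥ* ((y * z : Matrix.SpecialLinearGroup ι F) : Matrix ι ι F) = Pi.single k 1 := by
    intro y z hy hz
    rw [Matrix.SpecialLinearGroup.coe_mul, ← vecMul_vecMul, hy, hz]
  have hinv : ∀ y : Matrix.SpecialLinearGroup ι F, Pi.single k 1 ᵥ* (y : Matrix ι ι F) = Pi.single k 1 →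
      Pi.single k 1 ᵥ* ((y⁻¹ : Matrix.SpecialLinearGroup ι F) : Matrix ι ι F) = Pi.single k 1 := by
    intro y hy
    have h1 : (y : Matrix ι ι F) * ((y⁻¹ : Matrix.SpecialLinearGroup ι F) : Matrix ι ι F) = 1 := by
      rw [← Matrix.SpecialLinearGroup.coe_mul, mul_inv_cancel, Matrix.SpecialLinearGroup.coe_one]
    conv_lhs => rw [← hy]
    rw [vecMul_vecMul, h1, vecMul_one]
  have hone : Pi.single k 1 ᵥ* ((1 : Matrix.SpecialLinearGroup ι F) : Matrix ι ι F) = Pi.single k 1 := by
    rw [Matrix.SpecialLinearGroup.coe_one, vecMul_one]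
  unfold NatG at hs
  refine closure_induction (p := fun (y : Matrix.SpecialLinearGroup ι F) _ =>
    Pi.single k 1 ᵥ* (y : Matrix ι ι F) = Pi.single k 1) ?_ hone
    (fun y z _ _ hy hz => hmul y z hy hz) (fun y _ hy => hinv y hy) hs
  rintro y ⟨v, hv, f, hf, hfv, rfl⟩
  rw [vecMul_tv hfv, single_dotProduct, hv k hk, mul_zero, zero_smul, add_zero]

theorem NatG_col_entry {I : Finset ι} {s : Matrix.SpecialLinearGroup ι F} (hs : s ∈ NatG F I) {k : ι} (hk : k ∉ I) (i : ι) :
    (s : Matrix ι ι F) i k = if i = k then 1 else 0 := by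
  have h1 := congrFun (NatG_fix hs hk) i
  rw [mulVec_single_one] at h1
  rw [← col_apply (s : Matrix ι ι F) k i, h1, Pi.single_apply]

theorem NatG_row_entry {I : Finset ι} {s : Matrix.SpecialLinearGroup ι F} (hs : s ∈ NatG F I) {k : ι} (hk : k ∉ I) (i : ι) :
    (s : Matrix ι ι F) k i = if i = k then 1 else 0 := by
  have h1 := congrFun (NatG_fix_row hs hk) i
  rw [single_one_vecMul] at h1
  rw [← row_apply (s : Matrix ι ι F) k i, h1, Pi.single_apply]

theorem NatG_disjoint {I J : Finset ι} (h : Disjoint I J) {s : Matrix.SpecialLinearGroup ι F} (hs : s ∈ NatG F I)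
    (hs' : s ∈ NatG F J) : s = 1 := by
  apply sl_ext
  ext i k
  rw [Matrix.SpecialLinearGroup.coe_one, one_apply]
  by_cases hk : k ∈ I
  · exact NatG_col_entry hs' (Finset.disjoint_left.1 h hk) i
  · exact NatG_col_entry hs hk i

/-- **`|SL_I| |SL_{Iᶜ}| ≤ |C(sI I)|`** -/
theorem card_centralizer_sI [Finite F] {I : Finset ι} (hI : Even I.card) :
    Nat.card (NatG F I) * Nat.card (NatG F Iᶜ) ≤
      Nat.card (centralizer ({sI F I hI} : Set (Matrix.SpecialLinearGroup ι F))) := by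
  have h1 : NatG F I ≤ centralizer ({sI F I hI} : Set (Matrix.SpecialLinearGroup ι F)) :=
    NatG_le_centralizer hI (c := -1) (fun j hj => by simp [sg, hj])
  have h2 : NatG F Iᶜ ≤ centralizer ({sI F I hI} : Set (Matrix.SpecialLinearGroup ι F)) :=
    NatG_le_centralizer hI (c := 1) (fun j hj => by simp [sg, Finset.mem_compl.1 hj])
  rw [← Nat.card_prod]
  refine Nat.card_le_card_of_injective (fun p : NatG F I × NatG F Iᶜ =>
    (⟨p.1.1 * p.2.1, mul_mem (h1 p.1.2) (h2 p.2.2)⟩ :
      centralizer ({sI F I hI} : Set (Matrix.SpecialLinearGroup ι F)))) ?_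
  rintro ⟨a, b⟩ ⟨a', b'⟩ hab
  have h3 : a.1 * b.1 = a'.1 * b'.1 := congrArg Subtype.val hab
  have h4 : a'.1⁻¹ * a.1 = b'.1 * b.1⁻¹ := by
    rw [inv_mul_eq_iff_eq_mul, ← mul_assoc, ← h3, mul_inv_cancel_right]
  have h5 : a'.1⁻¹ * a.1 = 1 := by
    apply NatG_disjoint disjoint_compl_right (mul_mem (inv_mem a'.2) a.2)
    rw [h4]
    exact mul_mem b'.2 (inv_mem b.2)
  have h6 : a = a' := Subtype.ext (inv_mul_eq_one.1 h5).symm
  subst h6
  have h7 : b = b' := Subtype.ext (mul_left_cancel h3)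
  rw [h7]

/-- commuting modulo scalars is commuting -/
theorem comm_of_pr {I J : Finset ι} (hI : Even I.card) {k : ι} (hkJ : k ∉ J)
    {x : Matrix.SpecialLinearGroup ι F} (hx : x ∈ NatG F J) (h : pr (x * sI F I hI) = pr (sI F I hI * x)) :
    (x : Matrix ι ι F) * diagonal (sg F I) = diagonal (sg F I) * (x : Matrix ι ι F) := by
  obtain ⟨e, he⟩ := exists_smul_of_pr_eq h
  rw [Matrix.SpecialLinearGroup.coe_mul, Matrix.SpecialLinearGroup.coe_mul, coe_sI] at he
  have h1 := congrFun (congrFun he k) k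
  rw [diagonal_mul, Matrix.smul_apply, mul_diagonal, NatG_col_entry hx hkJ, if_pos rfl, mul_one, one_mul,
    smul_eq_mul] at h1
  have h2 : sg F I k ≠ 0 := fun h0 => by
    have := sg_mul (F := F) I k
    rw [h0, mul_zero] at this
    exact zero_ne_one this
  have h3 : e = 1 := by
    have : (1 : F) * sg F I k = e * sg F I k := by rw [one_mul]; exact h1
    exact (mul_right_cancel₀ h2 this).symm
  rw [he, h3, one_smul]

/-- **block matrices** -/
theorem card_block [Finite F] (h2 : (2 : F) ≠ 0) {I J I₁ : Finset ι} (hI : Even I.card) {k : ι} (hkJ : k ∉ J)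
    (hI1 : ∀ j ∈ J, j ∈ I ↔ j ∈ I₁) (hI1J : I₁ ⊆ J) :
    Nat.card {x : Matrix.SpecialLinearGroup ι F // x ∈ NatG F J ∧ pr (x * sI F I hI) = pr (sI F I hI * x)} ≤
      Nat.card F ^ (I₁.card ^ 2 + (J \ I₁).card ^ 2) := by
  have hcard : Nat.card ((I₁ → I₁ → F) × (↥(J \ I₁) → ↥(J \ I₁) → F)) =
      Nat.card F ^ (I₁.card ^ 2 + (J \ I₁).card ^ 2) := by
    rw [Nat.card_prod, Nat.card_fun, Nat.card_fun, Nat.card_fun, Nat.card_fun, Nat.card_eq_fintype_card (α := I₁),
      Nat.card_eq_fintype_card (α := ↥(J \ I₁)), Fintype.card_coe, Fintype.card_coe, ← pow_mul, ← pow_mul, ← pow_add, sq, sq]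
  rw [← hcard]
  refine Nat.card_le_card_of_injective (fun x => (fun i j => (x.1 : Matrix ι ι F) i j, fun i j => (x.1 : Matrix ι ι F) i j)) ?_
  rintro ⟨x, hx, hxc⟩ ⟨y, hy, hyc⟩ hxy
  apply Subtype.ext
  apply sl_ext
  have hx' := comm_of_pr hI hkJ hx hxc
  have hy' := comm_of_pr hI hkJ hy hyc
  have hz : ∀ {w : Matrix.SpecialLinearGroup ι F}, (w : Matrix ι ι F) * diagonal (sg F I) =
      diagonal (sg F I) * (w : Matrix ι ι F) → ∀ i j, sg F I i ≠ sg F I j → (w : Matrix ι ι F) i j = 0 := by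
    intro w hw i j hij
    have h3 := congrFun (congrFun hw i) j
    rw [mul_diagonal, diagonal_mul, mul_comm] at h3
    have h4 : (sg F I j - sg F I i) * (w : Matrix ι ι F) i j = 0 := by rw [sub_mul, h3, sub_self]
    exact (mul_eq_zero.1 h4).resolve_left (sub_ne_zero.2 hij.symm)
  ext i j
  by_cases hj : j ∈ J
  · by_cases hi : i ∈ J
    · by_cases hi1 : i ∈ I₁
      · by_cases hj1 : j ∈ I₁
        · have h5 := congrArg (fun p : (I₁ → I₁ → F) × (↥(J \ I₁) → ↥(J \ I₁) → F) => p.1 ⟨i, hi1⟩ ⟨j, hj1⟩) hxy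
          exact h5
        · have h6 : sg F I i ≠ sg F I j := by
            unfold sg
            rw [if_pos ((hI1 i hi).2 hi1), if_neg (fun h => hj1 ((hI1 j hj).1 h))]
            intro h
            apply h2
            linear_combination -h
          rw [hz hx' i j h6, hz hy' i j h6]
      · by_cases hj1 : j ∈ I₁
        · have h6 : sg F I i ≠ sg F I j := by
            unfold sg
            rw [if_pos ((hI1 j hj).2 hj1), if_neg (fun h => hi1 ((hI1 i hi).1 h))]
            intro h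
            apply h2
            linear_combination h
          rw [hz hx' i j h6, hz hy' i j h6]
        · have h5 := congrArg (fun p : (I₁ → I₁ → F) × (↥(J \ I₁) → ↥(J \ I₁) → F) =>
            p.2 ⟨i, Finset.mem_sdiff.2 ⟨hi, hi1⟩⟩ ⟨j, Finset.mem_sdiff.2 ⟨hj, hj1⟩⟩) hxy
          exact h5
    · rw [NatG_row_entry hx hi, NatG_row_entry hy hi]
  · rw [NatG_col_entry hx hj, NatG_col_entry hy hj]

/-- **generation** -/
theorem sup_natG {I J : Finset ι} (hIJ : ∀ i, i ∈ I ∨ i ∈ J) {r : ι} (hrI : r ∈ I) (hrJ : r ∈ J) :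
    NatG F I ⊔ NatG F J = ⊤ := by
  have key : ∀ (I J : Finset ι) (H : Subgroup (Matrix.SpecialLinearGroup ι F)) (r : ι), r ∈ I → r ∈ J → NatG F I ≤ H →
      NatG F J ≤ H → ∀ i j, i ∈ I → j ∈ J → i ≠ j → ∀ c : F, tv (Pi.single i c) (Pi.single j 1) ∈ H := by
    intro I J H r hrI hrJ hI hJ i j hi hj hij c
    by_cases hjI : j ∈ I
    · exact hI (hasT_NatG _ _ (single_mem_cs hi _) _ (single_mem_cs hjI _) (by simp [hij.symm]))
    by_cases hiJ : i ∈ J
    · exact hJ (hasT_NatG _ _ (single_mem_cs hiJ _) _ (single_mem_cs hj _) (by simp [hij.symm]))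
    have hri : r ≠ i := by rintro rfl; exact hiJ hrJ
    have hrj : r ≠ j := by rintro rfl; exact hjI hrI
    have h1 : (Pi.single r 1 : ι → F) ⬝ᵥ Pi.single i c = 0 := by simp [hri]
    have h2 : (Pi.single j 1 : ι → F) ⬝ᵥ Pi.single r 1 = 0 := by simp [hrj.symm]
    have h3 := conj_tv_tv h1 h2
    have h4 : (Pi.single r 1 : ι → F) ⬝ᵥ Pi.single r 1 = 1 := by simp
    have h5 : (Pi.single j 1 : ι → F) ⬝ᵥ Pi.single i c = 0 := by simp [hij.symm]
    rw [h4, one_smul, h5, zero_smul, sub_zero, tv_add_left h2 h5] at h3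
    have ha : tv (Pi.single i c) (Pi.single r 1) ∈ H :=
      hI (hasT_NatG _ _ (single_mem_cs hi _) _ (single_mem_cs hrI _) h1)
    have hb : tv (Pi.single r 1) (Pi.single j 1) ∈ H :=
      hJ (hasT_NatG _ _ (single_mem_cs hrJ _) _ (single_mem_cs hj _) h2)
    have h6 : tv (Pi.single i c) (Pi.single j 1) = (tv (Pi.single r 1) (Pi.single j 1))⁻¹ *
        (tv (Pi.single i c) (Pi.single r 1) * tv (Pi.single r 1) (Pi.single j 1) *
          (tv (Pi.single i c) (Pi.single r 1))⁻¹) := by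
      rw [h3, inv_mul_cancel_left]
    rw [h6]
    exact mul_mem (inv_mem hb) (mul_mem (mul_mem ha hb) (inv_mem ha))
  rw [eq_top_iff, ← Cfsg.Agent.LieClassical.SLGen.closure_transvections, Subgroup.closure_le]
  rintro _ ⟨i, j, h, c, rfl⟩
  rw [SetLike.mem_coe, transvection_eq_tv h c]
  rcases hIJ i with hi | hi
  · rcases hIJ j with hj | hj
    · exact (le_sup_left : NatG F I ≤ NatG F I ⊔ NatG F J)
        (hasT_NatG _ _ (single_mem_cs hi _) _ (single_mem_cs hj _) (by simp [h.symm]))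
    · exact key I J _ r hrI hrJ le_sup_left le_sup_right i j hi hj h c
  · rcases hIJ j with hj | hj
    · exact key J I _ r hrJ hrI le_sup_right le_sup_left i j hi hj h c
    · exact (le_sup_right : NatG F J ≤ NatG F I ⊔ NatG F J)
        (hasT_NatG _ _ (single_mem_cs hi _) _ (single_mem_cs hj _) (by simp [h.symm]))

end

end Cfsg.Agent.H974.IF
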