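import Cfsg.Agent.H809.IF.EngC
import Cfsg.Agent.H847.IF.Lift
import Cfsg.Agent.H371.IFx.Base

/-!
# S5719, classical groups: the inequality (E4) in a covering group (helper974)

`lift_E4_card` : `pi : G → T` surjective, `T` simple, `pi s ≠ pi t` commuting involutions of `A`, `B`, `H ≤ G` commute with
`t` modulo the kernel, `H ∩ ker pi = 1`, at most `N` elements of `H` commute with `s` modulo the kernel:
`|B : B ∩ pi⁻¹ A| ^ 4 · |H| · |C_G(s)| < N · |G|`.
-/

set_option autoImplicit false

namespace Cfsg.Agent.H974.IF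

open Subgroup Cfsg.Agent.H209.Fxy

theorem lift_E4_card {G T : Type*} [Group G] [Finite G] [Group T] [Finite T] [IsSimpleGroup T] {A : Subgroup T}
    {Γ : Subgroup (MulAut T)} (h : IF A Γ) (hna : ∃ a b : T, a * b ≠ b * a) (pi : G →* T)
    (hpi : Function.Surjective pi) {s t : G} (hs : pi s ∈ A) (ht : pi t ∈ A) (hs1 : pi s ≠ 1) (ht1 : pi t ≠ 1)
    (hs2 : pi (s * s) = 1) (ht2 : pi (t * t) = 1) (hst : pi s ≠ pi t) (hc : pi (s * t) = pi (t * s))
    {B H : Subgroup G} (hB : ∀ b ∈ B, pi (b * t) = pi (t * b)) (hH : ∀ x ∈ H, pi (x * t) = pi (t * x))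
    (hker : ∀ x ∈ H, pi x = 1 → x = 1) {N : ℕ} (hN : Nat.card {x : G // x ∈ H ∧ pi (x * s) = pi (s * x)} ≤ N) :
    (A.comap pi).relIndex B ^ 4 * Nat.card H * Nat.card (centralizer ({s} : Set G)) < N * Nat.card G := by
  have hos : orderOf (pi s) = 2 := by
    apply orderOf_eq_prime _ hs1
    rw [pow_two, ← map_mul, hs2]
  have hot : orderOf (pi t) = 2 := by
    apply orderOf_eq_prime _ ht1
    rw [pow_two, ← map_mul, ht2]
  obtain ⟨-, -, h4, -⟩ := Cfsg.Agent.H809.IFC.IF.E4 h hna hs ht hos hot hst (by rw [← map_mul, hc, map_mul])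
  set c := (centralizer ({pi s} : Set T)).relIndex (centralizer ({pi t} : Set T)) with hcdef
  -- `|B : B ∩ A| ≤ f(t)`
  have h5 : (A.comap pi).relIndex B ≤ fx A (MulAut.conj (pi t)) := by
    rw [relIndex_comap]
    apply Cfsg.Agent.H371.IFx.relIndex_le_fx
    rintro _ ⟨b, hb, rfl⟩
    have h6 := hB b hb
    rw [map_mul, map_mul] at h6
    rw [MulAut.conj_apply, ← h6, mul_inv_cancel_right]
  -- `|H| ≤ c N`
  have h7 : Nat.card H ≤ c * N := by
    have hle : H.map pi ≤ centralizer ({pi t} : Set T) := by
      rintro _ ⟨x, hx, rfl⟩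
      rw [mem_centralizer_iff]
      rintro _ rfl
      have h6 := hH x hx
      rw [map_mul, map_mul] at h6
      exact h6.symm
    have h8 : Nat.card (H.map pi) = Nat.card H := by
      have hf : Function.Injective (pi.comp H.subtype) :=
        (injective_iff_map_eq_one _).2 fun x hx => Subtype.ext (hker x x.2 hx)
      have e1 : (pi.comp H.subtype).range = H.map pi := by rw [MonoidHom.range_comp, Subgroup.range_subtype]
      rw [← e1]
      exact (Nat.card_congr (MonoidHom.ofInjective hf).toEquiv).symm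
    have h9 : (centralizer ({pi s} : Set T)).relIndex (H.map pi) ≤ c :=
      relIndex_le_of_le_right hle index_ne_zero_of_finite
    have h10 : Nat.card (centralizer ({pi s} : Set T) ⊓ H.map pi : Subgroup T) ≤ N := by
      refine le_trans ?_ hN
      refine Nat.card_le_card_of_injective (fun y : (centralizer ({pi s} : Set T) ⊓ H.map pi : Subgroup T) =>
        (⟨y.2.2.choose, y.2.2.choose_spec.1, ?_⟩ : {x : G // x ∈ H ∧ pi (x * s) = pi (s * x)})) ?_
      · have h11 := (Subgroup.mem_inf.1 y.2).1
        rw [mem_centralizer_iff] at h11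
        have h12 := h11 _ rfl
        rw [map_mul, map_mul, y.2.2.choose_spec.2]
        exact h12.symm
      · intro y y' hyy
        have h13 := congrArg (fun z : {x : G // x ∈ H ∧ pi (x * s) = pi (s * x)} => pi z.1) hyy
        apply Subtype.ext
        rw [← y.2.2.choose_spec.2, ← y'.2.2.choose_spec.2]
        exact h13
    have h14 : (centralizer ({pi s} : Set T)).relIndex (H.map pi) *
        Nat.card (centralizer ({pi s} : Set T) ⊓ H.map pi : Subgroup T) = Nat.card (H.map pi) := by
      have h16 := relIndex_mul_relIndex (⊥ : Subgroup T) (centralizer ({pi s} : Set T) ⊓ H.map pi) (H.map pi) bot_le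
        inf_le_right
      rw [relIndex_bot_left, relIndex_bot_left, inf_relIndex_right] at h16
      rw [mul_comm]
      exact h16
    rw [← h8, ← h14]
    exact Nat.mul_le_mul h9 h10
  -- `|T : C(pi s)| |C_G(s)| ≤ |G|`
  have h15 : (centralizer ({pi s} : Set T)).index * Nat.card (centralizer ({s} : Set G)) ≤ Nat.card G := by
    have h16 : (centralizer ({pi s} : Set T)).index ≤ (centralizer ({s} : Set G)).index := by
      rw [← index_comap_of_surjective _ hpi]
      refine Nat.le_of_dvd (Nat.pos_of_ne_zero index_ne_zero_of_finite) (index_dvd_of_le ?_)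
      intro x hx
      rw [mem_centralizer_iff] at hx
      rw [mem_comap, mem_centralizer_iff]
      rintro _ rfl
      rw [← map_mul, hx s rfl, map_mul]
    calc _ ≤ (centralizer ({s} : Set G)).index * Nat.card (centralizer ({s} : Set G)) := Nat.mul_le_mul_right _ h16
      _ = Nat.card G := index_mul_card _
  have hNpos : 0 < N := by
    rcases Nat.eq_zero_or_pos N with h0 | h0
    · rw [h0, mul_zero] at h7
      exact absurd (Nat.card_pos (α := H)) (by omega)
    · exact h0
  calc (A.comap pi).relIndex B ^ 4 * Nat.card H * Nat.card (centralizer ({s} : Set G))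
      ≤ fx A (MulAut.conj (pi t)) ^ 4 * (c * N) * Nat.card (centralizer ({s} : Set G)) :=
        Nat.mul_le_mul_right _ (Nat.mul_le_mul (Nat.pow_le_pow_left h5 4) h7)
    _ = N * (fx A (MulAut.conj (pi t)) ^ 4 * c * Nat.card (centralizer ({s} : Set G))) := by ring
    _ < N * ((centralizer ({pi s} : Set T)).index * Nat.card (centralizer ({s} : Set G))) :=
        Nat.mul_lt_mul_of_pos_left (Nat.mul_lt_mul_of_pos_right h4 Nat.card_pos) hNpos
    _ ≤ N * Nat.card G := Nat.mul_le_mul_left _ h15

end Cfsg.Agent.H974.IF
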