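import Cfsg.Agent.H974.IF.Coord

/-!
# S5719, `SL_n`, `q` odd: the inequalities between the orders (helper974)
-/

set_option autoImplicit false

namespace Cfsg.Agent.H974.IF

section

variable {F : Type*} [Field F] [Fintype F]

/-- the order of `SL_n(F)` -/
noncomputable def g (F : Type*) [Field F] [Fintype F] (n : ℕ) : ℕ := Nat.card (Matrix.SpecialLinearGroup (Fin n) F)

theorem g_one : g F 1 = 1 := by
  unfold g
  rw [Cfsg.Agent.H919.Gs.card_sl (le_refl 1)]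
  simp

theorem g_succ {n : ℕ} (hn : 1 ≤ n) : g F (n + 1) = g F n * (Fintype.card F ^ n * (Fintype.card F ^ (n + 1) - 1)) := by
  unfold g
  rw [Cfsg.Agent.H919.Gs.card_sl (by omega), Cfsg.Agent.H919.Gs.card_sl hn]
  obtain ⟨k, rfl⟩ : ∃ k, n = k + 1 := ⟨n - 1, by omega⟩
  have e1 : (k + 1 + 1) * (k + 1 + 1 - 1) / 2 = (k + 1) * (k + 1 - 1) / 2 + (k + 1) := by
    have : (k + 1 + 1) * (k + 1 + 1 - 1) = (k + 1) * (k + 1 - 1) + (k + 1) * 2 := by
      simp only [Nat.add_sub_cancel]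
      ring
    rw [this, Nat.add_mul_div_right _ _ (by norm_num)]
  rw [e1, pow_add]
  simp only [Nat.add_sub_cancel]
  rw [Finset.prod_range_succ]
  ring

theorem g_pos (n : ℕ) : 0 < g F n := Nat.card_pos

theorem g_le {n : ℕ} (hn : 1 ≤ n) : g F (n + 1) ≤ g F n * Fintype.card F ^ (2 * n + 1) := by
  rw [g_succ hn]
  refine Nat.mul_le_mul_left _ ?_
  calc Fintype.card F ^ n * (Fintype.card F ^ (n + 1) - 1) ≤ Fintype.card F ^ n * Fintype.card F ^ (n + 1) :=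
        Nat.mul_le_mul_left _ (Nat.sub_le _ _)
    _ = Fintype.card F ^ (2 * n + 1) := by rw [← pow_add]; congr 1; omega

theorem g_le_two {n : ℕ} (hn : 1 ≤ n) : g F (n + 2) ≤ g F n * Fintype.card F ^ (4 * n + 4) := by
  calc g F (n + 2) ≤ g F (n + 1) * Fintype.card F ^ (2 * (n + 1) + 1) := g_le (by omega)
    _ ≤ g F n * Fintype.card F ^ (2 * n + 1) * Fintype.card F ^ (2 * (n + 1) + 1) := Nat.mul_le_mul_right _ (g_le hn)
    _ = g F n * Fintype.card F ^ (4 * n + 4) := by rw [mul_assoc, ← pow_add]; congr 2; omega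

theorem g_ge' (h3 : 3 ≤ Fintype.card F) {n : ℕ} (hn : 1 ≤ n) :
    Fintype.card F ^ (n ^ 2) * (Fintype.card F ^ n + 1) ≤ Fintype.card F ^ (n + 2) * g F n := by
  set q := Fintype.card F with hq
  induction n, hn using Nat.le_induction with
  | base =>
    rw [g_one, mul_one, one_pow, pow_one]
    have h5 : q + 1 ≤ q * q := by nlinarith
    calc q * (q + 1) ≤ q * (q * q) := Nat.mul_le_mul_left _ h5
      _ = q ^ (1 + 2) := by ring
  | succ n hn ih =>
    rw [g_succ hn, ← hq]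
    obtain ⟨y, hy⟩ : ∃ y, q ^ (n + 1) = y + 1 := ⟨q ^ (n + 1) - 1, by have := Nat.one_le_pow (n + 1) q (by omega); omega⟩
    rw [hy, Nat.add_sub_cancel]
    have h1 : q ^ (n + 1) = q ^ n * q := pow_succ q n
    have hqn : 1 ≤ q ^ n := Nat.one_le_pow _ _ (by omega)
    have h4 : q ^ n * 3 ≤ q ^ n * q := Nat.mul_le_mul_left _ h3
    have h5 : q ^ n * (y + 1 + 1) ≤ y * (q ^ n + 1) := by nlinarith
    calc q ^ (n + 1) ^ 2 * (y + 1 + 1) = q ^ (n ^ 2) * q ^ (n + 1) * (q ^ n * (y + 1 + 1)) := by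
          rw [← hy]; ring
      _ ≤ q ^ (n ^ 2) * q ^ (n + 1) * (y * (q ^ n + 1)) := Nat.mul_le_mul_left _ h5
      _ = q ^ (n + 1) * y * (q ^ (n ^ 2) * (q ^ n + 1)) := by ring
      _ ≤ q ^ (n + 1) * y * (q ^ (n + 2) * g F n) := Nat.mul_le_mul_left _ ih
      _ = q ^ (n + 1 + 2) * (g F n * (q ^ n * y)) := by ring

theorem g_ge (h3 : 3 ≤ Fintype.card F) {n : ℕ} (hn : 1 ≤ n) : Fintype.card F ^ (n ^ 2) ≤ Fintype.card F ^ 2 * g F n := by
  have h1 := g_ge' h3 hn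
  have hq : 0 < Fintype.card F ^ n := Nat.pow_pos (by omega)
  rw [pow_add] at h1
  have h2 : Fintype.card F ^ n * Fintype.card F ^ (n ^ 2) ≤ Fintype.card F ^ n * (Fintype.card F ^ 2 * g F n) := by
    calc Fintype.card F ^ n * Fintype.card F ^ (n ^ 2) = Fintype.card F ^ (n ^ 2) * Fintype.card F ^ n := by ring
      _ ≤ Fintype.card F ^ (n ^ 2) * (Fintype.card F ^ n + 1) := Nat.mul_le_mul_left _ (by omega)
      _ ≤ _ := h1
      _ = _ := by ring
  exact Nat.le_of_mul_le_mul_left h2 hq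

/-- first inequality: PHI against (E2) -/
theorem ineq_one (h3 : 3 ≤ Fintype.card F) {k : ℕ} (hk : 3 ≤ k) :
    g F (k + 2) ≤ (Fintype.card F ^ (k * (k - 1) / 2)) ^ 5 * (g F 2 * g F k) := by
  have h1 := g_le_two (F := F) (n := k) (by omega)
  have h2 := g_ge (F := F) h3 (n := 2) (by norm_num)
  have hq : 0 < Fintype.card F := by omega
  have h4 : Fintype.card F ^ 2 ≤ g F 2 := by
    have h5 : Fintype.card F ^ 2 * Fintype.card F ^ 2 ≤ Fintype.card F ^ 2 * g F 2 := by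
      rw [← pow_add]
      exact h2
    exact Nat.le_of_mul_le_mul_left h5 (Nat.pow_pos hq)
  have he : 4 * k + 4 ≤ k * (k - 1) / 2 * 5 + 2 := by
    obtain ⟨j, rfl⟩ : ∃ j, k = j + 3 := ⟨k - 3, by omega⟩
    have h6 : 2 * j + 3 ≤ (j + 3) * (j + 3 - 1) / 2 := by
      rw [Nat.le_div_iff_mul_le (by norm_num)]
      have : j + 3 - 1 = j + 2 := by omega
      rw [this]
      nlinarith
    omega
  calc g F (k + 2) ≤ g F k * Fintype.card F ^ (4 * k + 4) := h1
    _ ≤ g F k * Fintype.card F ^ (k * (k - 1) / 2 * 5 + 2) := Nat.mul_le_mul_left _ (Nat.pow_le_pow_right hq he)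
    _ = (Fintype.card F ^ (k * (k - 1) / 2)) ^ 5 * (Fintype.card F ^ 2 * g F k) := by rw [← pow_mul]; ring
    _ ≤ _ := Nat.mul_le_mul_left _ (Nat.mul_le_mul_right _ h4)

/-- second inequality: minimal index against (E4), `n = r + 4` -/
theorem ineq_two (h3 : 3 ≤ Fintype.card F) {r : ℕ} (hr : 1 ≤ r) :
    Fintype.card F ^ (4 + r ^ 2) * g F (r + 4) ≤ (Fintype.card F ^ (r + 1)) ^ 4 * g F (r + 2) * (g F 4 * g F r) := by
  set q := Fintype.card F with hq
  have h1 : g F (r + 4) ≤ g F (r + 2) * q ^ (4 * r + 12) := by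
    have := g_le_two (F := F) (n := r + 2) (by omega)
    calc _ ≤ _ := this
      _ = _ := by congr 2
  have h2 := g_ge (F := F) h3 (n := 4) (by norm_num)
  have h4 := g_ge (F := F) h3 hr
  rw [← hq] at h2 h4
  have h5 : q ^ 16 * q ^ (r ^ 2) ≤ q ^ 4 * (g F 4 * g F r) := by
    calc q ^ 16 * q ^ (r ^ 2) ≤ (q ^ 2 * g F 4) * (q ^ 2 * g F r) := Nat.mul_le_mul (by simpa using h2) h4
      _ = _ := by ring
  calc q ^ (4 + r ^ 2) * g F (r + 4) ≤ q ^ (4 + r ^ 2) * (g F (r + 2) * q ^ (4 * r + 12)) := Nat.mul_le_mul_left _ h1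
    _ = q ^ (4 * r) * g F (r + 2) * (q ^ 16 * q ^ (r ^ 2)) := by ring
    _ ≤ q ^ (4 * r) * g F (r + 2) * (q ^ 4 * (g F 4 * g F r)) := Nat.mul_le_mul_left _ h5
    _ = _ := by rw [← pow_mul]; ring

end

end Cfsg.Agent.H974.IF
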